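import Cfsg.Agent.H776.P4.Stmts
import Cfsg.Agent.H541.PU.L1

/-!
# S5210 (Q): the parabolic `Q`, `q > 3`, from the action on `Q/Z` (`StQa`) and the uniqueness of lifts (`StLift`) (helper763)

* `CP`: the automorphisms of `Q` acting trivially on `Q/Z`; `UP`: the image of `SL₂(k)` in `Aut(Q)`.
-/

set_option autoImplicit false

namespace Cfsg.Agent.H763.P4

open Cfsg Cfsg.FusionSystem Cfsg.Agent.H776.P4 Cfsg.Agent.H802
open Cfsg.Agent.H756.PU (HypK Inv NormAut TIAut AF StLift)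
open Cfsg.Agent.H541.PU (exists_prim exists_ne_star exists_theta not_dvd_of_syl le_normalizer_of_conj mem_sup_iff_map)

universe u

variable {K : Type u} [Field K] [StarRing K] {p n : ℕ}

/-! ### the group `Q` -/

theorem PQ_conj_mem (g : PG K) {e : PG K} (he : e ∈ PQ K) : g * e * g⁻¹ ∈ PQ K := by
  have h1 : e.c = 0 := he
  change (g * e * g⁻¹).c = 0
  simp [h1]

instance PQ_normal : (PQ K).Normal := ⟨fun _ he g => PQ_conj_mem g he⟩

@[simp] theorem q_c (e : PQ K) : (e : PG K).c = 0 := e.2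

/-- elements of `Q` are determined by the coordinates `r, a, b` -/
theorem ext3 {e e' : PQ K} (hr : (e : PG K).r = (e' : PG K).r) (ha : (e : PG K).a = (e' : PG K).a)
    (hb : (e : PG K).b = (e' : PG K).b) : e = e' := by
  apply Subtype.ext
  ext
  · exact hr
  · exact ha
  · exact hb
  · rw [q_c, q_c]

theorem q_r (e e' : PQ K) : ((e * e' : PQ K) : PG K).r = (e : PG K).r + (e' : PG K).r := rfl
theorem q_b (e e' : PQ K) : ((e * e' : PQ K) : PG K).b = (e : PG K).b + (e' : PG K).b := by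
  simp [PG.mul_b]
theorem q_a (e e' : PQ K) : ((e * e' : PQ K) : PG K).a = (e : PG K).a + (e' : PG K).a
    + (e : PG K).r * star (e' : PG K).b + star (e : PG K).r * (e' : PG K).b := by
  simp [PG.mul_a]
theorem qi_r (e : PQ K) : ((e⁻¹ : PQ K) : PG K).r = - (e : PG K).r := rfl
theorem qi_b (e : PQ K) : ((e⁻¹ : PQ K) : PG K).b = - (e : PG K).b := by
  simp [PG.inv_b]

/-- the element with given coordinates -/
def mkQ (r a b : K) (h : star a = a) : PQ K :=
  ⟨{ r := r, a := a, b := b, c := 0, ha := h, hc := by simp }, rfl⟩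

theorem exists_mk (r b : K) : ∃ e : PQ K, (e : PG K).r = r ∧ (e : PG K).b = b :=
  ⟨mkQ r 0 b (by simp), rfl, rfl⟩

theorem mem_center_of {z : PQ K} (hr : (z : PG K).r = 0) (hb : (z : PG K).b = 0) :
    z ∈ Subgroup.center (PQ K) := by
  rw [Subgroup.mem_center_iff]
  intro g
  apply ext3
  · rw [q_r, q_r]; ring
  · rw [q_a, q_a, hr, hb]; simp [add_comm]
  · rw [q_b, q_b]; ring

theorem coords_of_mem_center (h : HypK K p n) {z : PQ K} (hz : z ∈ Subgroup.center (PQ K)) :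
    (z : PG K).r = 0 ∧ (z : PG K).b = 0 := by
  rw [Subgroup.mem_center_iff] at hz
  obtain ⟨θ, hθ⟩ := exists_theta h
  have key : ∀ r b : K, r * star (z : PG K).b + star r * (z : PG K).b =
      (z : PG K).r * star b + star (z : PG K).r * b := by
    intro r b
    obtain ⟨e, h1, h3⟩ := exists_mk r b
    have := congrArg (fun x : PQ K => (x : PG K).a) (hz e)
    simp only [q_a, h1, h3] at this
    linear_combination this
  refine ⟨?_, ?_⟩
  · by_contra hr
    have hsr : star (z : PG K).r ≠ 0 := star_ne_zero.2 hr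
    have h1 := key 0 (θ / star (z : PG K).r)
    simp only [zero_mul, star_zero, add_zero] at h1
    rw [star_div₀, star_star, mul_div_cancel₀ _ hr, mul_div_cancel₀ _ hsr] at h1
    rw [add_comm, hθ] at h1
    exact zero_ne_one h1
  · by_contra hr
    have hsr : star (z : PG K).b ≠ 0 := star_ne_zero.2 hr
    have h1 := key (θ / star (z : PG K).b) 0
    simp only [mul_zero, star_zero, add_zero] at h1
    rw [star_div₀, star_star, div_mul_cancel₀ _ hsr, div_mul_cancel₀ _ hr, hθ] at h1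
    exact one_ne_zero h1

variable (K) in
/-- the automorphisms of `Q` acting trivially on `Q/Z` -/
def CP : Subgroup (MulAut (PQ K)) where
  carrier := {α | ∀ e : PQ K, ((α e : PQ K) : PG K).r = (e : PG K).r ∧ ((α e : PQ K) : PG K).b = (e : PG K).b}
  one_mem' := fun e => ⟨rfl, rfl⟩
  mul_mem' := by
    intro α β hα hβ e
    rw [MulAut.mul_apply]
    exact ⟨(hα _).1.trans (hβ _).1, (hα _).2.trans (hβ _).2⟩
  inv_mem' := by
    intro α hα e
    have h1 := hα (α⁻¹ e)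
    have h3 : α (α⁻¹ e) = e := α.apply_symm_apply e
    rw [h3] at h1
    exact ⟨h1.1.symm, h1.2.symm⟩

theorem conj_mem_CP (y : PQ K) : MulAut.conj y ∈ CP K := by
  intro e
  rw [MulAut.conj_apply]
  refine ⟨?_, ?_⟩
  · rw [q_r, q_r, qi_r]; ring
  · rw [q_b, q_b, qi_b]; ring

theorem inv_mul_mem_center {α : MulAut (PQ K)} (hα : α ∈ CP K) (e : PQ K) : e⁻¹ * α e ∈ Subgroup.center (PQ K) := by
  obtain ⟨h1, h3⟩ := hα e
  apply mem_center_of
  · rw [q_r, qi_r, h1]; ring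
  · rw [q_b, qi_b, h3]; ring

/-- the elements of `CP` act trivially on the centre -/
theorem CP_center (h : HypK K p n) {α : MulAut (PQ K)} (hα : α ∈ CP K) {z : PQ K}
    (hz : z ∈ Subgroup.center (PQ K)) : α z = z := by
  obtain ⟨h1, h3⟩ := coords_of_mem_center h hz
  obtain ⟨θ, hθ⟩ := exists_theta h
  have ha := (z : PG K).ha
  -- z is a commutator
  set e : PQ K := mkQ 1 0 0 (by simp) with he
  set f : PQ K := mkQ 0 0 ((z : PG K).a * θ) (by simp) with hf
  have hzc : e * f = z * (f * e) := by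
    apply ext3
    · simp only [q_r, h1]; rw [he, hf]; simp [mkQ]
    · simp only [q_a, q_r, q_b, h1, h3]; rw [he, hf]; simp [mkQ]
      linear_combination (z : PG K).a * hθ + star θ * ha
    · simp only [q_b, h3]; rw [he, hf]; simp [mkQ]
  have hc : ∀ x y : PQ K, α x * α y * (x * y)⁻¹ = (x⁻¹ * α x) * (y⁻¹ * α y) := by
    intro x y
    have c1 := Subgroup.mem_center_iff.1 (inv_mul_mem_center hα x)
    have c2 := Subgroup.mem_center_iff.1 (inv_mul_mem_center hα y)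
    have e1 : α x = x * (x⁻¹ * α x) := by group
    have e2 : α y = y * (y⁻¹ * α y) := by group
    generalize x⁻¹ * α x = s at *
    generalize y⁻¹ * α y = t at *
    rw [e1, e2, mul_inv_rev]
    calc x * s * (y * t) * (y⁻¹ * x⁻¹) = x * s * (y * t * y⁻¹) * x⁻¹ := by group
      _ = x * s * t * x⁻¹ := by rw [c2 y]; group
      _ = x * (s * t) * x⁻¹ := by group
      _ = s * t := by
        rw [← mul_assoc x, c1 x, mul_assoc s x t, c2 x]
        group
  have hα2 : α e * α f = α z * (α f * α e) := by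
    rw [← map_mul, ← map_mul, ← map_mul, hzc]
  have k1 := hc e f
  have k2 := hc f e
  have c1 := Subgroup.mem_center_iff.1 (inv_mul_mem_center hα f) (e⁻¹ * α e)
  have k3 : α e * α f * (e * f)⁻¹ = α f * α e * (f * e)⁻¹ := by rw [k1, k2, c1]
  rw [hα2, hzc, mul_inv_rev] at k3
  have k4 : α z * (α f * α e * (f * e)⁻¹) * z⁻¹ = α f * α e * (f * e)⁻¹ := by
    refine Eq.trans ?_ k3
    group
  have c3 : (α f * α e * (f * e)⁻¹) ∈ Subgroup.center (PQ K) := by
    rw [k2]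
    exact (Subgroup.center (PQ K)).mul_mem (inv_mul_mem_center hα f) (inv_mul_mem_center hα e)
  have c4 := Subgroup.mem_center_iff.1 c3 (α z)
  rw [c4] at k4
  have k5 : α z * z⁻¹ = 1 := by
    apply mul_left_cancel (a := α f * α e * (f * e)⁻¹)
    rw [← mul_assoc, k4, mul_one]
  exact mul_inv_eq_one.1 k5

theorem map_center {α : MulAut (PQ K)} {z : PQ K} (hz : z ∈ Subgroup.center (PQ K)) :
    α z ∈ Subgroup.center (PQ K) := by
  rw [Subgroup.mem_center_iff] at hz ⊢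
  intro g
  have := congrArg α (hz (α.symm g))
  rwa [map_mul, map_mul, MulEquiv.apply_symm_apply] at this

theorem CP_normal (h : HypK K p n) : (CP K).Normal := by
  refine ⟨fun c hc γ e => ?_⟩
  rw [MulAut.mul_apply, MulAut.mul_apply]
  set f := γ⁻¹ e with hf
  have h1 : γ f = e := γ.apply_symm_apply e
  have h2 : c f = f * (f⁻¹ * c f) := by group
  obtain ⟨k1, k3⟩ := coords_of_mem_center h (map_center (α := γ) (inv_mul_mem_center hc f))
  rw [h2, map_mul, h1, q_r, q_b, k1, k3]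
  simp

theorem CP_comm (h : HypK K p n) {α β : MulAut (PQ K)} (hα : α ∈ CP K) (hβ : β ∈ CP K) : α * β = β * α := by
  apply MulEquiv.ext
  intro e
  rw [MulAut.mul_apply, MulAut.mul_apply]
  have hα' := inv_mul_mem_center hα e
  have hβ' := inv_mul_mem_center hβ e
  have h1 : α e = e * (e⁻¹ * α e) := by group
  have h2 : β e = e * (e⁻¹ * β e) := by group
  generalize e⁻¹ * α e = s at *
  generalize e⁻¹ * β e = t at *
  rw [h2, map_mul, CP_center h hα hβ', h1, map_mul, CP_center h hβ hα', h2, mul_assoc, mul_assoc,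
    Subgroup.mem_center_iff.1 hβ' s]

theorem CP_pow (h : HypK K p n) {α : MulAut (PQ K)} (hα : α ∈ CP K) (e : PQ K) (k : ℕ) :
    (α ^ k) e = e * (e⁻¹ * α e) ^ k := by
  induction k with
  | zero => simp
  | succ k ih =>
    rw [pow_succ', MulAut.mul_apply, ih, map_mul, map_pow, CP_center h hα (inv_mul_mem_center hα e), pow_succ',
      ← mul_assoc, mul_inv_cancel_left]

theorem CP_pgroup (hG : StGrp.{u}) (h : HypK K p n) : IsPGroup p (CP K) := by
  rintro ⟨α, hα⟩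
  refine ⟨n * 6, ?_⟩
  apply Subtype.ext
  change α ^ (p ^ (n * 6)) = 1
  apply MulEquiv.ext
  intro e
  rw [CP_pow h hα]
  have h1 : (e⁻¹ * α e) ^ (p ^ (n * 6)) = 1 := by
    apply Subtype.ext
    rw [Subgroup.coe_pow, pow_mul, ← (hG h).1]
    exact pow_card_eq_one'
  rw [h1, mul_one]
  rfl

/-! ### the image of `SL₂(k)` -/

/-- the automorphism given by a matrix -/
structure IsU (x y z w : K) (α : MulAut (PQ K)) : Prop where
  sx : star x = x
  sy : star y = y
  sz : star z = z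
  sw : star w = w
  det : x * w - y * z = 1
  r : ∀ e : PQ K, ((α e : PQ K) : PG K).r = x * (e : PG K).r + y * (e : PG K).b
  a : ∀ e : PQ K, ((α e : PQ K) : PG K).a = (e : PG K).a + x * z * ((e : PG K).r * star (e : PG K).r) +
    y * z * ((e : PG K).r * star (e : PG K).b + star (e : PG K).r * (e : PG K).b) +
    y * w * ((e : PG K).b * star (e : PG K).b)
  b : ∀ e : PQ K, ((α e : PQ K) : PG K).b = z * (e : PG K).r + w * (e : PG K).b

variable (K) in
/-- the image of `SL₂(k)` in `Aut(Q)` -/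
def UP : Subgroup (MulAut (PQ K)) where
  carrier := {α | ∃ x y z w : K, IsU x y z w α}
  one_mem' := ⟨1, 0, 0, 1, by
    refine ⟨by simp, by simp, by simp, by simp, by simp, ?_, ?_, ?_⟩ <;> intro e <;> simp⟩
  mul_mem' := by
    rintro α β ⟨x, y, z, w, hα⟩ ⟨x', y', z', w', hβ⟩
    refine ⟨x * x' + y * z', x * y' + y * w', z * x' + w * z', z * y' + w * w', ?_, ?_, ?_, ?_, ?_, ?_, ?_, ?_⟩
    · simp only [star_add, star_mul', hα.sx, hα.sy, hβ.sx, hβ.sz]
    · simp only [star_add, star_mul', hα.sx, hα.sy, hβ.sw, hβ.sy]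
    · simp only [star_add, star_mul', hα.sz, hα.sw, hβ.sx, hβ.sz]
    · simp only [star_add, star_mul', hα.sz, hα.sw, hβ.sw, hβ.sy]
    · linear_combination (x' * w' - y' * z') * hα.det + hβ.det
    · intro e
      rw [MulAut.mul_apply, hα.r, hβ.r, hβ.b]
      ring
    · intro e
      rw [MulAut.mul_apply, hα.a, hβ.a, hβ.r, hβ.b]
      simp only [star_add, star_mul', hβ.sx, hβ.sy, hβ.sz, hβ.sw]
      have h1 := hα.det
      have h2 : x * w = 1 + y * z := by linear_combination h1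
      linear_combination (x' * z' * ((e : PG K).r * star (e : PG K).r) +
        y' * z' * ((e : PG K).r * star (e : PG K).b + star (e : PG K).r * (e : PG K).b) +
        y' * w' * ((e : PG K).b * star (e : PG K).b)) * (-h1)
    · intro e
      rw [MulAut.mul_apply, hα.b, hβ.r, hβ.b]
      ring
  inv_mem' := by
    rintro α ⟨x, y, z, w, hα⟩
    have hd := hα.det
    have hi : ∀ e : PQ K, α (α⁻¹ e) = e := fun e => α.apply_symm_apply e
    have hr : ∀ e : PQ K, ((α⁻¹ e : PQ K) : PG K).r = w * (e : PG K).r + (-y) * (e : PG K).b := by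
      intro e
      have h1 := hα.r (α⁻¹ e)
      have h2 := hα.b (α⁻¹ e)
      rw [hi] at h1 h2
      rw [h1, h2]
      linear_combination (-((α⁻¹ e : PQ K) : PG K).r) * hd
    have hb : ∀ e : PQ K, ((α⁻¹ e : PQ K) : PG K).b = (-z) * (e : PG K).r + x * (e : PG K).b := by
      intro e
      have h1 := hα.r (α⁻¹ e)
      have h2 := hα.b (α⁻¹ e)
      rw [hi] at h1 h2
      rw [h1, h2]
      linear_combination (-((α⁻¹ e : PQ K) : PG K).b) * hd
    refine ⟨w, -y, -z, x, ?_, ?_, ?_, ?_, ?_, hr, ?_, hb⟩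
    · exact hα.sw
    · rw [star_neg, hα.sy]
    · rw [star_neg, hα.sz]
    · exact hα.sx
    · linear_combination hd
    · intro e
      have h1 := hα.a (α⁻¹ e)
      rw [hi, hr, hb] at h1
      simp only [star_add, star_mul', star_neg, hα.sx, hα.sy, hα.sz, hα.sw] at h1
      have h2 : ((α⁻¹ e : PQ K) : PG K).a = (e : PG K).a - (x * z * ((w * (e : PG K).r + (-y) * (e : PG K).b) *
          (w * star (e : PG K).r + (-y) * star (e : PG K).b)) +
        y * z * ((w * (e : PG K).r + (-y) * (e : PG K).b) * ((-z) * star (e : PG K).r + x * star (e : PG K).b) +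
          (w * star (e : PG K).r + (-y) * star (e : PG K).b) * ((-z) * (e : PG K).r + x * (e : PG K).b)) +
        y * w * (((-z) * (e : PG K).r + x * (e : PG K).b) * ((-z) * star (e : PG K).r + x * star (e : PG K).b))) := by
        linear_combination -h1
      rw [h2]
      have h3 : x * w = 1 + y * z := by linear_combination hd
      linear_combination (-((z * w) * ((e : PG K).r * star (e : PG K).r) -
        y * z * ((e : PG K).r * star (e : PG K).b + star (e : PG K).r * (e : PG K).b) +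
        x * y * ((e : PG K).b * star (e : PG K).b))) * hd

theorem eq_of_CP_UP {α : MulAut (PQ K)} (hC : α ∈ CP K) (hU : α ∈ UP K) : α = 1 := by
  obtain ⟨x, y, z, w, hα⟩ := hU
  obtain ⟨e, he1, he2⟩ := exists_mk (K := K) 1 0
  obtain ⟨f, hf1, hf2⟩ := exists_mk (K := K) 0 1
  have h1 := hα.r e
  have h2 := hα.b e
  have h3 := hα.r f
  have h4 := hα.b f
  rw [(hC e).1, he1, he2, mul_one, mul_zero, add_zero] at h1
  rw [(hC e).2, he1, he2, mul_one, mul_zero, add_zero] at h2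
  rw [(hC f).1, hf1, hf2, mul_one, mul_zero, zero_add] at h3
  rw [(hC f).2, hf1, hf2, mul_one, mul_zero, zero_add] at h4
  subst h1 h2 h3 h4
  apply MulEquiv.ext
  intro g
  refine ext3 (e := α g) (e' := g) (hC g).1 ?_ (hC g).2
  rw [hα.a]
  ring

theorem eq_of_coords {α β : MulAut (PQ K)} (hα : α ∈ UP K) (hβ : β ∈ UP K)
    (h : ∀ e : PQ K, ((α e : PQ K) : PG K).r = ((β e : PQ K) : PG K).r ∧
      ((α e : PQ K) : PG K).b = ((β e : PQ K) : PG K).b) :
    α = β := by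
  rw [← mul_inv_eq_one]
  refine eq_of_CP_UP ?_ ((UP K).mul_mem hα ((UP K).inv_mem hβ))
  intro e
  have h1 := h (β⁻¹ e)
  have h2 : β (β⁻¹ e) = e := β.apply_symm_apply e
  rw [h2] at h1
  rw [MulAut.mul_apply]
  exact h1

/-! ### inner automorphisms -/

variable (K) in
/-- the inner automorphisms -/
abbrev IQ : Subgroup (MulAut (PQ K)) := (MulAut.conj : PQ K →* MulAut (PQ K)).range

theorem conj_conj (γ : MulAut (PQ K)) (y : PQ K) : γ * MulAut.conj y * γ⁻¹ = MulAut.conj (γ y) := by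
  apply MulEquiv.ext
  intro e
  rw [MulAut.mul_apply, MulAut.mul_apply, MulAut.conj_apply, MulAut.conj_apply, map_mul, map_mul, map_inv]
  congr 2
  exact γ.apply_symm_apply e

instance IQ_normal : (IQ K).Normal := by
  refine ⟨?_⟩
  rintro _ ⟨y, rfl⟩ γ
  exact ⟨γ y, (conj_conj γ y).symm⟩

theorem IQ_le_CP : IQ K ≤ CP K := by
  rintro _ ⟨y, rfl⟩
  exact conj_mem_CP y

/-- conjugation by an element of the whole group -/
noncomputable abbrev cj (s : PG K) : MulAut (PQ K) := MulAut.conjNormal s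

theorem cj_apply (s : PG K) (e : PQ K) : ((cj s e : PQ K) : PG K) = s * e * s⁻¹ := rfl

theorem mem_P_iff {α : MulAut (PQ K)} : α ∈ autInducedBy ⊤ (PQ K) ↔ ∃ s, α = cj s := by
  rw [mem_autInducedBy_iff]
  constructor
  · rintro ⟨g, -, hg⟩
    exact ⟨g, MulEquiv.ext fun e => Subtype.ext (hg e)⟩
  · rintro ⟨s, rfl⟩
    exact ⟨s, Subgroup.mem_top _, fun e => rfl⟩

theorem cj_mem (s : PG K) : cj s ∈ autInducedBy ⊤ (PQ K) := mem_P_iff.2 ⟨s, rfl⟩

theorem cj_coe (y : PQ K) : cj (y : PG K) = MulAut.conj y := MulEquiv.ext fun _ => Subtype.ext rfl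

theorem IQ_le_P : IQ K ≤ autInducedBy ⊤ (PQ K) := by
  rintro _ ⟨y, rfl⟩
  rw [← cj_coe]
  exact cj_mem _

theorem P_le_Lam : autInducedBy ⊤ (PQ K) ≤ LamQ K := le_sup_left

/-- the complement of `Q` -/
def s0 (c : K) (h : star c = c) : PG K :=
  { r := 0, a := 0, b := 0, c := c, ha := by simp, hc := h }

theorem cj_s0 {c : K} (h : star c = c) : IsU 1 0 (-c) 1 (cj (s0 c h)) := by
  refine ⟨by simp, by simp, by simp [h], by simp, by simp, ?_, ?_, ?_⟩
  · intro e
    rw [cj_apply]; simp [s0]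
  · intro e
    have h1 := q_c e
    rw [cj_apply]; simp [s0, PG.mul_a, PG.inv_a, PG.mul_b, PG.inv_b]
    ring
  · intro e
    have h1 := q_c e
    rw [cj_apply]; simp [s0, PG.mul_b, PG.inv_b]
    ring

theorem cj_mem_sup (s : PG K) : cj s ∈ IQ K ⊔ UP K := by
  have hmem : s * (s0 s.c s.hc)⁻¹ ∈ PQ K := by
    change (s * (s0 s.c s.hc)⁻¹).c = 0
    simp [s0]
  have h1 : s = ((⟨_, hmem⟩ : PQ K) : PG K) * s0 s.c s.hc := by simp
  have h2 : cj s = MulAut.conj (⟨_, hmem⟩ : PQ K) * cj (s0 s.c s.hc) := by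
    rw [← cj_coe, ← map_mul, ← h1]
  rw [h2]
  exact Subgroup.mul_mem_sup ⟨_, rfl⟩ ⟨_, _, _, _, cj_s0 s.hc⟩

theorem wq_isU {w : MulAut (PQ K)} (hw : IsWQ w) : IsU 0 1 (-1) 0 w := by
  refine ⟨by simp, by simp, by simp, by simp, by simp, ?_, ?_, ?_⟩
  · intro e; rw [hw.r]; ring
  · intro e; rw [hw.a]; ring
  · intro e; rw [hw.b]; ring

theorem wq_mem_UP {w : MulAut (PQ K)} (hw : IsWQ w) : w ∈ UP K := ⟨_, _, _, _, wq_isU hw⟩

theorem Lam_le : LamQ K ≤ IQ K ⊔ UP K := by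
  refine sup_le ?_ ?_
  · intro α hα
    obtain ⟨s, rfl⟩ := mem_P_iff.1 hα
    exact cj_mem_sup s
  · rw [Subgroup.closure_le]
    rintro w hw
    exact Subgroup.mem_sup_right (wq_mem_UP hw)

theorem Lam_inf_le : LamQ K ⊓ CP K ≤ IQ K := by
  rintro α ⟨h1, h2⟩
  have h3 := Lam_le h1
  rw [Subgroup.mem_sup_of_normal_left] at h3
  obtain ⟨i, hi, v, hv, rfl⟩ := h3
  have h4 : v ∈ CP K := by
    have := (CP K).mul_mem ((CP K).inv_mem (IQ_le_CP hi)) h2
    rwa [inv_mul_cancel_left] at this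
  rw [eq_of_CP_UP h4 hv, mul_one]
  exact hi

/-! ### the Weyl element -/

theorem wq_inv {w : MulAut (PQ K)} (hw : IsWQ w) (e : PQ K) :
    ((w⁻¹ e : PQ K) : PG K).r = - (e : PG K).b ∧ ((w⁻¹ e : PQ K) : PG K).b = (e : PG K).r := by
  have h3 : w (w⁻¹ e) = e := w.apply_symm_apply e
  have h1 := hw.r (w⁻¹ e)
  have h4 := hw.b (w⁻¹ e)
  rw [h3] at h1 h4
  exact ⟨by rw [h4, neg_neg], h1.symm⟩

/-- the elements `[0, 1/l; -l, 0]` -/
theorem weyl_eq {w : MulAut (PQ K)} (hw : IsWQ w) {l : K} (hl : star l = l) (hl0 : l ≠ 0) {v : MulAut (PQ K)}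
    (hv : v ∈ UP K) (hvr : ∀ e : PQ K, ((v e : PQ K) : PG K).r = l⁻¹ * (e : PG K).b)
    (hvb : ∀ e : PQ K, ((v e : PQ K) : PG K).b = -l * (e : PG K).r) :
    ∃ x ∈ autInducedBy ⊤ (PQ K), ∃ y ∈ autInducedBy ⊤ (PQ K), v = x * (w⁻¹ * y * w) * x := by
  have hli : star l⁻¹ = l⁻¹ := by rw [star_inv₀, hl]
  have hx := cj_s0 hl
  have hy := cj_s0 hli
  set x := cj (s0 l hl) with hxd
  set y := cj (s0 l⁻¹ hli) with hyd
  have hxU : x ∈ UP K := ⟨_, _, _, _, hx⟩
  have hyU : y ∈ UP K := ⟨_, _, _, _, hy⟩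
  have hwU := wq_mem_UP hw
  refine ⟨x, cj_mem _, y, cj_mem _, eq_of_coords hv ?_ ?_⟩
  · exact (UP K).mul_mem ((UP K).mul_mem hxU ((UP K).mul_mem ((UP K).mul_mem ((UP K).inv_mem hwU) hyU) hwU)) hxU
  intro e
  simp only [MulAut.mul_apply]
  obtain ⟨b1, b3⟩ := wq_inv hw (y (w (x e)))
  rw [hx.r (w⁻¹ (y (w (x e)))), hx.b (w⁻¹ (y (w (x e)))), b1, b3, hy.r, hy.b, hw.r, hw.b, hx.r e, hx.b e, hvr, hvb]
  refine ⟨?_, ?_⟩
  · field_simp
    ring
  · field_simp
    ring

/-! ### the torus -/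

theorem tor_conj_P {d : MulAut (PG K)} {δ : MulAut (PQ K)} (hd : IsRP d δ) {α : MulAut (PQ K)}
    (hα : α ∈ autInducedBy ⊤ (PQ K)) : δ * α * δ⁻¹ ∈ autInducedBy ⊤ (PQ K) := by
  obtain ⟨s, rfl⟩ := mem_P_iff.1 hα
  refine mem_P_iff.2 ⟨d s, ?_⟩
  apply MulEquiv.ext
  intro e
  apply Subtype.ext
  rw [MulAut.mul_apply, MulAut.mul_apply, hd, cj_apply, cj_apply, map_mul, map_mul, map_inv, ← hd]
  congr 2
  exact congrArg _ (δ.apply_symm_apply e)

theorem tor_conj_U {d : MulAut (PG K)} {s l : K} {τ : K ≃+* K} (ht : IsTorP d s l τ) {δ : MulAut (PQ K)}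
    (hd : IsRP d δ) {x y z w : K} {α : MulAut (PQ K)} (hα : IsU x y z w α) :
    IsU (τ x) (l⁻¹ * τ y) (l * τ z) (τ w) (δ * α * δ⁻¹) := by
  have hl := ht.nl
  have hs := ht.ns
  have hs' : star s ≠ 0 := star_ne_zero.2 hs
  have hinv : ∀ e : PQ K, δ (δ⁻¹ e) = e := fun e => δ.apply_symm_apply e
  have key : ∀ P : PQ K → Prop, (∀ f : PQ K, P (δ f)) → ∀ e, P e := by
    intro P h e
    rw [← hinv e]
    exact h _
  have hδ : ∀ f : PQ K, (δ * α * δ⁻¹) (δ f) = δ (α f) := by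
    intro f
    rw [MulAut.mul_apply, MulAut.mul_apply]
    congr 2
    exact δ.symm_apply_apply f
  have h2 : τ x * τ w - τ y * τ z = 1 := by rw [← map_mul, ← map_mul, ← map_sub, hα.det, map_one]
  refine ⟨?_, ?_, ?_, ?_, ?_, key _ fun f => ?_, key _ fun f => ?_, key _ fun f => ?_⟩
  · rw [← ht.tst, hα.sx]
  · rw [star_mul', star_inv₀, ht.sl, ← ht.tst, hα.sy]
  · rw [star_mul', ht.sl, ← ht.tst, hα.sz]
  · rw [← ht.tst, hα.sw]
  · field_simp
    linear_combination h2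
  · rw [hδ, hd, hd, ht.r, ht.r, ht.b, hα.r, map_add, map_mul, map_mul]
    field_simp
  · rw [hδ, hd, hd, ht.a, ht.a, ht.r, ht.b, hα.a]
    simp only [map_add, map_sub, map_mul, ht.tst, star_mul', star_inv₀, star_star, ht.sl]
    field_simp
  · rw [hδ, hd, hd, ht.r, ht.b, ht.b, hα.b, map_add, map_mul, map_mul]
    ring

theorem tor_conj_Lam {d : MulAut (PG K)} {s l : K} {τ : K ≃+* K} (ht : IsTorP d s l τ) {δ : MulAut (PQ K)}
    (hd : IsRP d δ) {g : MulAut (PQ K)} (hg : g ∈ LamQ K) : δ * g * δ⁻¹ ∈ LamQ K := by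
  have h : LamQ K ≤ (LamQ K).comap (MulAut.conj δ).toMonoidHom := by
    refine sup_le ?_ ?_
    · intro α hα
      exact P_le_Lam (tor_conj_P hd hα)
    · rw [Subgroup.closure_le]
      rintro w hw
      have hU := tor_conj_U ht hd (wq_isU hw)
      obtain ⟨x, hx, y, hy, he⟩ := weyl_eq hw ht.sl ht.nl (v := δ * w * δ⁻¹) ⟨_, _, _, _, hU⟩
        (fun e => by rw [hU.r]; simp) (fun e => by rw [hU.b]; simp)
      have hwL : w ∈ LamQ K := Subgroup.mem_sup_right (Subgroup.subset_closure hw)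
      change δ * w * δ⁻¹ ∈ LamQ K
      rw [he]
      exact (LamQ K).mul_mem ((LamQ K).mul_mem (P_le_Lam hx) ((LamQ K).mul_mem ((LamQ K).mul_mem
        ((LamQ K).inv_mem hwL) (P_le_Lam hy)) hwL)) (P_le_Lam hx)
  exact h hg

/-! ### restrictions -/

/-- the restrictions of the elements of `D` to `Q` -/
def RD (D : Subgroup (MulAut (PG K))) : Subgroup (MulAut (PQ K)) where
  carrier := {δ | ∃ d ∈ D, IsRP d δ}
  one_mem' := ⟨1, D.one_mem, fun e => rfl⟩
  mul_mem' := by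
    rintro a b ⟨d, hd, h⟩ ⟨d', hd', h'⟩
    exact ⟨d * d', D.mul_mem hd hd', fun e => by rw [MulAut.mul_apply, MulAut.mul_apply, h, h']⟩
  inv_mem' := by
    rintro a ⟨d, hd, h⟩
    refine ⟨d⁻¹, D.inv_mem hd, fun e => ?_⟩
    have h1 := h (a⁻¹ e)
    have h3 : a (a⁻¹ e) = e := a.apply_symm_apply e
    rw [h3] at h1
    rw [h1]
    exact (d.symm_apply_apply _).symm

theorem IsRP_pow {d : MulAut (PG K)} {δ : MulAut (PQ K)} (h : IsRP d δ) (k : ℕ) : IsRP (d ^ k) (δ ^ k) := by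
  induction k with
  | zero => exact fun e => rfl
  | succ k ih =>
    intro e
    rw [pow_succ', pow_succ', MulAut.mul_apply, MulAut.mul_apply, h, ih]

theorem RD_coprime [Finite (PG K)] {D : Subgroup (MulAut (PG K))} (hp : p.Prime) (hD : (Nat.card D).Coprime p) :
    (Nat.card (RD D)).Coprime p := by
  haveI : Fact p.Prime := ⟨hp⟩
  rw [Nat.coprime_comm, Nat.Prime.coprime_iff_not_dvd hp] at hD ⊢
  intro hdvd
  haveI : Finite (MulAut (PQ K)) := inferInstance
  obtain ⟨⟨δ, d, hd, h⟩, hx⟩ := exists_prime_orderOf_dvd_card' p hdvd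
  apply hD
  rw [← hx]
  apply orderOf_dvd_of_pow_eq_one
  apply Subtype.ext
  change δ ^ (Nat.card D) = 1
  have h1 : d ^ (Nat.card D) = 1 := by
    have : (⟨d, hd⟩ : D) ^ (Nat.card D) = 1 := pow_card_eq_one'
    exact congrArg Subtype.val this
  apply MulEquiv.ext
  intro e
  apply Subtype.ext
  rw [IsRP_pow h, h1]
  rfl

theorem exists_restr {α : MulAut (PG K)} {s l : K} {τ : K ≃+* K} (ht : IsTorP α s l τ) :
    ∃ δ : MulAut (PQ K), IsRP α δ := by
  have h1 : ∀ e ∈ PQ K, α e ∈ PQ K := by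
    intro e k1
    have k1' : e.c = 0 := k1
    change (α e).c = 0
    rw [ht.c, k1']; simp
  have h2 : ∀ e ∈ PQ K, α.symm e ∈ PQ K := by
    intro e k1
    have k1' : e.c = 0 := k1
    have e1 := ht.c (α.symm e)
    rw [MulEquiv.apply_symm_apply] at e1
    rw [k1'] at e1
    change (α.symm e).c = 0
    have := (mul_eq_zero.1 e1.symm).resolve_left ht.nl
    simpa using this
  refine ⟨{ toFun := fun e => ⟨α e, h1 e e.2⟩
            invFun := fun e => ⟨α.symm e, h2 e e.2⟩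
            left_inv := fun e => Subtype.ext (by simp)
            right_inv := fun e => Subtype.ext (by simp)
            map_mul' := fun x y => Subtype.ext (by simp) }, fun e => rfl⟩

/-- an element of norm one whose square is not one -/
theorem exists_norm_one (h : HypK K p n) (hq : 3 < p ^ n) : ∃ t : K, t ≠ 0 ∧ t ^ 2 ≠ 1 ∧ t * star t = 1 := by
  obtain ⟨θ, h0, h1⟩ := exists_prim h
  haveI := h.fin
  haveI := Fintype.ofFinite K
  refine ⟨θ ^ (p ^ n - 1), pow_ne_zero _ h0, ?_, ?_⟩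
  · rw [← pow_mul]
    refine h1 _ (by omega) ?_
    have h2 : 4 * p ^ n ≤ (p ^ n) ^ 2 := by rw [pow_two]; exact Nat.mul_le_mul_right _ hq
    omega
  · rw [h.star_eq, ← pow_succ', ← pow_mul]
    have h2 : (p ^ n - 1) * (p ^ n + 1) = (p ^ n) ^ 2 - 1 := by
      have := Nat.sq_sub_sq (p ^ n) 1
      rw [one_pow, mul_comm] at this
      exact this.symm
    rw [h2]
    have h3 := FiniteField.pow_card_sub_one_eq_one θ h0
    rwa [← Nat.card_eq_fintype_card, h.card] at h3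

theorem fix_trivial (hG : StGrp.{u}) (h : HypK K p n) (hq : 3 < p ^ n) {D : Subgroup (MulAut (PG K))}
    (hT : HasTorP D (fun t => t ^ 2) (fun t => (t * star t)⁻¹)) {c : MulAut (PQ K)} (hc : c ∈ CP K)
    (hcomm : ∀ δ ∈ RD D, δ * c = c * δ) : c = 1 := by
  obtain ⟨t, ht0, ht1, htN⟩ := exists_norm_one h hq
  have hs0 : star t ≠ 0 := star_ne_zero.2 ht0
  obtain ⟨α, hα⟩ := (hG h).2.2.1 (t ^ 2) (t * star t)⁻¹ (RingEquiv.refl K)
    (pow_ne_zero _ ht0) (inv_ne_zero (mul_ne_zero ht0 hs0)) (by rw [htN]; simp)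
  have hαD := hT t ht0 α hα
  obtain ⟨δ, hδ⟩ := exists_restr hα
  have hδc := hcomm δ ⟨α, hαD, hδ⟩
  have ht2 : t ^ 2 - 1 ≠ 0 := sub_ne_zero.2 ht1
  have hl : (t * star t)⁻¹ = 1 := by rw [htN, inv_one]
  rw [hl] at hα
  -- `δ` is trivial on the centre
  have hδz : ∀ z ∈ Subgroup.center (PQ K), δ z = z := by
    intro z hz
    obtain ⟨k1, k3⟩ := coords_of_mem_center h hz
    apply ext3
    · rw [hδ, hα.r, k1]; simp
    · rw [hδ, hα.a]
      simp only [star_pow, RingEquiv.refl_apply]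
      have : t ^ 2 * star t ^ 2 = 1 := by rw [← mul_pow, htN, one_pow]
      rw [this]; ring
    · rw [hδ, hα.b, k3]; simp
  have hg : ∀ e : PQ K, c (δ e * e⁻¹) = δ e * e⁻¹ := by
    intro e
    have h1 : c (δ e) = δ (c e) := by
      rw [← MulAut.mul_apply, ← MulAut.mul_apply, hδc]
    have h2 : c e = e * (e⁻¹ * c e) := by group
    rw [map_mul, map_inv, h1, h2, map_mul, hδz _ (inv_mul_mem_center hc e)]
    group
  apply MulEquiv.ext
  intro f
  change c f = f
  obtain ⟨e, he1, he3⟩ := exists_mk ((f : PG K).r / (t ^ 2 - 1)) ((f : PG K).b / (t ^ 2 - 1))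
  have hz : (δ e * e⁻¹)⁻¹ * f ∈ Subgroup.center (PQ K) := by
    apply mem_center_of
    · rw [q_r, qi_r, q_r, qi_r, hδ, hα.r, he1]
      simp only [RingEquiv.refl_apply]
      field_simp
      ring
    · rw [q_b, qi_b, q_b, qi_b, hδ, hα.b, he3]
      simp only [RingEquiv.refl_apply]
      field_simp
      ring
  have h1 : f = (δ e * e⁻¹) * ((δ e * e⁻¹)⁻¹ * f) := by group
  rw [h1, map_mul, hg, CP_center h hc hz]

/-! ### the theorem -/

/-- **(Q)** -/
theorem stQ (hG : StGrp.{u}) (hLift : StLift.{u}) (hQa : StQa.{u}) : StQ.{u} := by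
  intro K _ _ p n h hq Γ D hPar hT
  obtain ⟨hTor, hA1, hA2⟩ := hQa h hq Γ D hPar hT
  refine ⟨hTor, ?_⟩
  haveI : Fact p.Prime := ⟨h.pp⟩
  haveI hCN := CP_normal h
  haveI : Finite (PG K) := by
    apply Nat.finite_of_card_ne_zero
    rw [(hG h).1]
    exact pow_ne_zero _ (pow_ne_zero _ h.pp.ne_zero)
  haveI : Finite (MulAut (PQ K)) := inferInstance
  set P : Subgroup (MulAut (PQ K)) := autInducedBy ⊤ (PQ K) with hP
  have hPp : IsPGroup p P := isPGroup_autInducedBy (hG h).2.1 _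
  set L : Subgroup (MulAut (PQ K)) := Subgroup.closure {x | ∃ γ ∈ Γ, ∃ y ∈ P, x = γ * y * γ⁻¹} with hL
  have agree : ∀ γ l : MulAut (PQ K), (∀ e : PQ K, ((γ e : PQ K) : PG K).r = ((l e : PQ K) : PG K).r ∧
      ((γ e : PQ K) : PG K).b = ((l e : PQ K) : PG K).b) → γ * l⁻¹ ∈ CP K := by
    intro γ l hh e
    rw [MulAut.mul_apply]
    have h1 := hh (l⁻¹ e)
    have h3 : l (l⁻¹ e) = e := l.apply_symm_apply e
    rwa [h3] at h1
  have hPL : P ≤ L := fun y hy => Subgroup.subset_closure ⟨1, Γ.one_mem, y, hy, by simp⟩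
  have hLΓ : L ≤ Γ := by
    rw [hL, Subgroup.closure_le]
    rintro _ ⟨γ, hγ, y, hy, rfl⟩
    exact Γ.mul_mem (Γ.mul_mem hγ (hPar.indu hy)) (Γ.inv_mem hγ)
  have hRΓ : RD D ≤ Γ := by
    rintro δ ⟨d, hd, hh⟩
    exact hPar.D_res d hd δ hh
  have hRLam : ∀ δ ∈ RD D, ∀ l ∈ LamQ K, δ * l * δ⁻¹ ∈ LamQ K := by
    rintro δ ⟨d, hd, hh⟩ l hl
    obtain ⟨x1, x2, τ, ht⟩ := (hG h).2.2.2.1 d (hPar.D_le hd)
    exact tor_conj_Lam ht hh hl
  have hLΓN : ∀ γ ∈ Γ, ∀ x ∈ L, γ * x * γ⁻¹ ∈ L := by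
    intro γ hγ
    have : L ≤ L.comap (MulAut.conj γ).toMonoidHom := by
      rw [hL, Subgroup.closure_le]
      rintro _ ⟨γ', hγ', y, hy, rfl⟩
      refine Subgroup.subset_closure ⟨γ * γ', Γ.mul_mem hγ hγ', y, hy, ?_⟩
      simp only [MulEquiv.toMonoidHom_eq_coe, MonoidHom.coe_coe, MulAut.conj_apply]
      group
    exact fun x hx => this hx
  -- elements of `Γ`
  have hdec : ∀ γ ∈ Γ, ∃ l ∈ LamQ K, ∃ δ ∈ RD D, ∃ c ∈ CP K, γ = c * (l * δ) := by
    intro γ hγ
    obtain ⟨l, hl, d, hd, δ, hδ, hh⟩ := hA2 γ hγ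
    exact ⟨l, hl, δ, ⟨d, hd, hδ⟩, γ * (l * δ)⁻¹, agree _ _ hh, by group⟩
  have hN : ∀ γ ∈ Γ, ∀ x ∈ LamQ K ⊔ CP K, γ * x * γ⁻¹ ∈ LamQ K ⊔ CP K := by
    intro γ hγ x hx
    obtain ⟨l, hl, δ, hδ, c, hc, rfl⟩ := hdec γ hγ
    have h1 : δ * x * δ⁻¹ ∈ LamQ K ⊔ CP K := by
      have : LamQ K ⊔ CP K ≤ (LamQ K ⊔ CP K).comap (MulAut.conj δ).toMonoidHom := by
        refine sup_le ?_ ?_
        · intro y hy
          exact Subgroup.mem_sup_left (hRLam δ hδ y hy)
        · intro y hy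
          exact Subgroup.mem_sup_right (hCN.conj_mem y hy δ)
      exact this hx
    have hl' : l ∈ LamQ K ⊔ CP K := Subgroup.mem_sup_left hl
    have hc' : c ∈ LamQ K ⊔ CP K := Subgroup.mem_sup_right hc
    have h2 := (LamQ K ⊔ CP K).mul_mem ((LamQ K ⊔ CP K).mul_mem ((LamQ K ⊔ CP K).mul_mem hc' hl') h1)
      ((LamQ K ⊔ CP K).inv_mem ((LamQ K ⊔ CP K).mul_mem hc' hl'))
    have h3 : c * (l * δ) * x * (c * (l * δ))⁻¹ = c * l * (δ * x * δ⁻¹) * (c * l)⁻¹ := by group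
    rw [h3]
    exact h2
  have hsup : L ⊔ CP K = LamQ K ⊔ CP K := by
    apply le_antisymm
    · refine sup_le ?_ le_sup_right
      rw [hL, Subgroup.closure_le]
      rintro _ ⟨γ, hγ, y, hy, rfl⟩
      exact hN γ hγ y (Subgroup.mem_sup_left (P_le_Lam hy))
    · refine sup_le ?_ le_sup_right
      refine sup_le (hPL.trans le_sup_left) ?_
      rw [Subgroup.closure_le]
      rintro w hw
      have hwU := wq_isU hw
      obtain ⟨x, hx, y, hy, hwx⟩ := weyl_eq hw (l := 1) (by simp) one_ne_zero ⟨_, _, _, _, hwU⟩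
        (fun e => by rw [hwU.r]; simp) (fun e => by rw [hwU.b]; simp)
      obtain ⟨γ, hγ, hh⟩ := hA1 w (Subgroup.mem_sup_right (Subgroup.subset_closure hw))
      have hγw := agree γ w hh
      have hq : QuotientGroup.mk' (CP K) γ = QuotientGroup.mk' (CP K) w := by
        have h1 : QuotientGroup.mk' (CP K) (γ * w⁻¹) = 1 := (QuotientGroup.eq_one_iff _).2 hγw
        rw [map_mul, map_inv] at h1
        exact mul_inv_eq_one.1 h1
      change w ∈ L ⊔ CP K
      rw [mem_sup_iff_map, hwx]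
      have hx' : QuotientGroup.mk' (CP K) x ∈ L.map (QuotientGroup.mk' (CP K)) := ⟨x, hPL hx, rfl⟩
      have hy' : QuotientGroup.mk' (CP K) (w⁻¹ * y * w) ∈ L.map (QuotientGroup.mk' (CP K)) := by
        rw [map_mul, map_mul, map_inv, ← hq, ← map_inv, ← map_mul, ← map_mul]
        have := hLΓN γ⁻¹ (Γ.inv_mem hγ) y (hPL hy)
        rw [inv_inv] at this
        exact ⟨_, this, rfl⟩
      rw [map_mul, map_mul]
      exact Subgroup.mul_mem _ (Subgroup.mul_mem _ hx' hy') hx'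
  -- intersections with `CP`
  have hΓC : Γ ⊓ CP K ≤ IQ K := by
    obtain ⟨g, hg, hgx⟩ := hPar.syl (Γ ⊓ CP K) inf_le_left
      ((CP_pgroup (K := K) hG h).to_le inf_le_right)
    intro x hx
    have hx' : g⁻¹ * x * g ∈ Γ ⊓ CP K := by
      refine ⟨Γ.mul_mem (Γ.mul_mem (Γ.inv_mem hg) hx.1) hg, ?_⟩
      have := hCN.conj_mem x hx.2 g⁻¹
      rwa [inv_inv] at this
    have h1 := hgx _ hx'
    have h2 : g * (g⁻¹ * x * g) * g⁻¹ = x := by group
    rw [h2] at h1
    exact Lam_inf_le ⟨P_le_Lam h1, hx.2⟩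
  have hLC : L ⊓ CP K = IQ K :=
    le_antisymm (fun x hx => hΓC ⟨hLΓ hx.1, hx.2⟩) (le_inf (IQ_le_P.trans hPL) IQ_le_CP)
  have hLamC : LamQ K ⊓ CP K = IQ K :=
    le_antisymm Lam_inf_le (le_inf (IQ_le_P.trans P_le_Lam) IQ_le_CP)
  have hLL : L = LamQ K := by
    refine hLift (p := p) (CP K) L (LamQ K) P (RD D) hCN (fun x hx y hy => CP_comm h hx hy) (CP_pgroup hG h) hsup
      (hLC.trans hLamC.symm) hPL P_le_Lam (hLC.le.trans IQ_le_P) (not_dvd_of_syl hPp hPar.syl hPL hLΓ) ?_ ?_ ?_ ?_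
      (RD_coprime h.pp hPar.D_cop) ?_
    · rw [hLC]
      exact le_normalizer_of_conj fun x _ y hy => (IQ_normal (K := K)).conj_mem y hy x
    · rw [hLC]
      exact le_normalizer_of_conj fun x _ y hy => (IQ_normal (K := K)).conj_mem y hy x
    · exact le_normalizer_of_conj fun x hx y hy => hLΓN x (hRΓ hx) y hy
    · exact le_normalizer_of_conj fun x hx y hy => hRLam x hx y hy
    · intro c hc hcc
      exact fix_trivial hG h hq hT hc hcc
  intro γ
  constructor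
  · intro hγ
    obtain ⟨l, hl, d, hd, δ, hδ, hh⟩ := hA2 γ hγ
    have hc := agree _ _ hh
    have hδΓ : δ ∈ Γ := hRΓ ⟨d, hd, hδ⟩
    have hlΓ : l ∈ Γ := hLΓ (hLL ▸ hl)
    have h1 : γ * (l * δ)⁻¹ ∈ IQ K := hΓC ⟨Γ.mul_mem hγ (Γ.inv_mem (Γ.mul_mem hlΓ hδΓ)), hc⟩
    refine ⟨γ * (l * δ)⁻¹ * l, (LamQ K).mul_mem (P_le_Lam (IQ_le_P h1)) hl, d, hd, δ, hδ, by group⟩
  · rintro ⟨l, hl, d, hd, δ, hδ, rfl⟩
    exact Γ.mul_mem (hLΓ (hLL ▸ hl)) (hRΓ ⟨d, hd, hδ⟩)

end Cfsg.Agent.H763.P4
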